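import Mathlib
import Cfsg.Agent.Lib.Helper95.Fix2.Defs

/-!
# FIX2 (S3390), package [B]

If some element of the `2`-group `S` moves `α` outside `{α, β}` then `T = S ∩ G_α` has order 2,
`T = ⟨x⟩`, and `|C_S(x)| = 4 < |S|`.
-/

set_option autoImplicit false

namespace Cfsg.Agent.Lib.Helper47.Fix2

open Cfsg.Agent.Lib.Helper95.Fix2

universe u v

section

variable {G : Type u} [Group G] {Ω : Type v} [MulAction G Ω] {S : Subgroup G} {α β : Ω} {t : G}

/-- An element of `S` mapping `α` to `β` maps `β` to `α`. -/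
theorem loc_swap (hL : Loc S α β t) {g : G} (hg : g ∈ S) (h : g • α = β) : g • β = α := by
  have h1 : (t⁻¹ * g) • α = α := by
    rw [mul_smul, h, ← hL.tα, inv_smul_smul]
  have h2 := hL.ab (t⁻¹ * g) (S.mul_mem (S.inv_mem hL.tS) hg) h1
  rw [mul_smul, inv_smul_eq_iff, hL.tβ] at h2
  exact h2

/-- The subgroup `R` of `S` of the elements mapping `α` into `{α, β}`. -/
def locR (hL : Loc S α β t) : Subgroup ↥S where
  carrier := {g | (g : G) • α = α ∨ (g : G) • α = β}
  one_mem' := Or.inl (one_smul _ _)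
  mul_mem' := by
    intro a b ha hb
    simp only [Set.mem_ofPred_eq, Subgroup.coe_mul, mul_smul] at *
    rcases hb with hb | hb <;> rcases ha with ha | ha
    · left; rw [hb, ha]
    · right; rw [hb, ha]
    · right; rw [hb]; exact hL.ab _ a.2 ha
    · left; rw [hb]; exact loc_swap hL a.2 ha
  inv_mem' := by
    intro a ha
    simp only [Set.mem_ofPred_eq, InvMemClass.coe_inv] at *
    rcases ha with ha | ha
    · left; rw [inv_smul_eq_iff, ha]
    · right; rw [inv_smul_eq_iff]; exact (loc_swap hL a.2 ha).symm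

theorem mem_locR (hL : Loc S α β t) (g : ↥S) :
    g ∈ locR hL ↔ ((g : G) • α = α ∨ (g : G) • α = β) := Iff.rfl

end

/-- **[B]** -/
theorem pkgB : PkgB.{u, v} := by
  intro G _ _ Ω _ S α β t hS hF hT hL hs
  obtain ⟨s, hsS, hsα, hsβ⟩ := hs
  classical
  have : Fact (Nat.Prime 2) := ⟨Nat.prime_two⟩
  have : Group.IsNilpotent ↥S := hS.isNilpotent
  have hRtop : locR hL < ⊤ := by
    rw [lt_top_iff_ne_top]
    intro h
    have h1 : (⟨s, hsS⟩ : ↥S) ∈ locR hL := h ▸ Subgroup.mem_top _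
    rcases (mem_locR hL _).1 h1 with h2 | h2
    · exact hsα h2
    · exact hsβ h2
  have hN := Group.normalizerCondition_of_isNilpotent (locR hL) hRtop
  obtain ⟨s0, hs0N, hs0R⟩ := SetLike.exists_of_lt hN
  have hs0 : (s0 : G) • α ≠ α ∧ (s0 : G) • α ≠ β := by
    rw [mem_locR] at hs0R
    exact not_or.1 hs0R
  -- Claim A: conjugates by `s0` of non-identity elements of `T` swap `α` and `β`
  have claimA : ∀ x : G, x ∈ S → x ≠ 1 → x • α = α → ((s0 : G) * x * (s0 : G)⁻¹) • α = β := by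
    intro x hxS hx1 hxα
    have hxR : (⟨x, hxS⟩ : ↥S) ∈ locR hL := (mem_locR hL _).2 (Or.inl hxα)
    have hyR : s0 * ⟨x, hxS⟩ * s0⁻¹ ∈ locR hL := (Subgroup.mem_normalizer_iff.1 hs0N _).1 hxR
    have h := (mem_locR hL _).1 hyR
    simp only [Subgroup.coe_mul, InvMemClass.coe_inv] at h
    rcases h with h1 | h1
    · exfalso
      have hy1 : (s0 : G) * x * (s0 : G)⁻¹ ≠ 1 := by
        intro h'
        apply hx1
        have h3 : x = (s0 : G)⁻¹ * ((s0 : G) * x * (s0 : G)⁻¹) * (s0 : G) := by group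
        rw [h3, h']; group
      have hyS : (s0 : G) * x * (s0 : G)⁻¹ ∈ S := S.mul_mem (S.mul_mem s0.2 hxS) (S.inv_mem s0.2)
      have hfix : ((s0 : G) * x * (s0 : G)⁻¹) • ((s0 : G) • α) = (s0 : G) • α := by
        rw [mul_smul, mul_smul, inv_smul_smul, hxα]
      rcases hL.fix _ hyS hy1 h1 _ hfix with h2 | h2
      · exact hs0.1 h2
      · exact hs0.2 h2
    · exact h1
  -- Claim B: `T` has at most one non-identity element
  have claimB : ∀ x y : G, x ∈ S → y ∈ S → x ≠ 1 → y ≠ 1 → x • α = α → y • α = α → x = y := by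
    intro x y hxS hyS hx1 hy1 hxα hyα
    by_contra hne
    have hz1 : x⁻¹ * y ≠ 1 := by
      intro h
      apply hne
      have : y = x * (x⁻¹ * y) := by group
      rw [this, h, mul_one]
    have hzS : x⁻¹ * y ∈ S := S.mul_mem (S.inv_mem hxS) hyS
    have hzα : (x⁻¹ * y) • α = α := by
      rw [mul_smul, hyα, inv_smul_eq_iff, hxα]
    have h1 := claimA _ hzS hz1 hzα
    have h2 := claimA x hxS hx1 hxα
    have h3 := claimA y hyS hy1 hyα
    have h4 : (s0 : G) * (x⁻¹ * y) * (s0 : G)⁻¹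
        = ((s0 : G) * x * (s0 : G)⁻¹)⁻¹ * ((s0 : G) * y * (s0 : G)⁻¹) := by group
    rw [h4, mul_smul, h3, inv_smul_eq_iff,
      loc_swap hL (S.mul_mem (S.mul_mem s0.2 hxS) (S.inv_mem s0.2)) h2] at h1
    exact hL.ne h1
  -- a non-identity element of `T`
  obtain ⟨x0', hx0'⟩ := (Subgroup.ne_bot_iff_exists_ne_one).1 hT
  obtain ⟨x0, hx0mem⟩ := x0'
  have hx0S : x0 ∈ S := (Subgroup.mem_inf.1 hx0mem).1
  have hx0α : x0 • α = α := MulAction.mem_stabilizer_iff.1 (Subgroup.mem_inf.1 hx0mem).2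
  have hx01 : x0 ≠ 1 := by
    intro h
    apply hx0'
    exact Subtype.ext h
  have hx0inv : x0⁻¹ = x0 := by
    apply claimB _ _ (S.inv_mem hx0S) hx0S (inv_ne_one.2 hx01) hx01 _ hx0α
    rw [inv_smul_eq_iff, hx0α]
  have hx0sq : x0 * x0 = 1 := by
    calc x0 * x0 = x0⁻¹ * x0 := by rw [hx0inv]
      _ = 1 := inv_mul_cancel x0
  have htx : t * x0 = x0 * t := by
    have h1 : t * x0 * t⁻¹ = x0 := by
      apply claimB _ _ (S.mul_mem (S.mul_mem hL.tS hx0S) (S.inv_mem hL.tS)) hx0S _ hx01 _ hx0α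
      · intro h
        apply hx01
        have h3 : x0 = t⁻¹ * (t * x0 * t⁻¹) * t := by group
        rw [h3, h]; group
      · apply hL.ba _ (S.mul_mem (S.mul_mem hL.tS hx0S) (S.inv_mem hL.tS))
        rw [mul_smul, mul_smul, inv_smul_eq_iff.2 hL.tα.symm, hx0α, hL.tα]
    calc t * x0 = t * x0 * t⁻¹ * t := by group
      _ = x0 * t := by rw [h1]
  have hmemC : ∀ g : ↥S, g ∈ Subgroup.centralizer ({(⟨x0, hx0S⟩ : ↥S)} : Set ↥S) ↔
      x0 * (g : G) = (g : G) * x0 := by
    intro g
    rw [Subgroup.mem_centralizer_iff]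
    constructor
    · intro h
      have := h _ (Set.mem_singleton _)
      exact congrArg Subtype.val this
    · intro h y hy
      rw [Set.mem_singleton_iff] at hy
      subst hy
      exact Subtype.ext h
  have hCset : ((Subgroup.centralizer ({(⟨x0, hx0S⟩ : ↥S)} : Set ↥S) : Subgroup ↥S) : Set ↥S)
      = {1, ⟨x0, hx0S⟩, ⟨t, hL.tS⟩, ⟨t * x0, S.mul_mem hL.tS hx0S⟩} := by
    ext g
    simp only [SetLike.mem_coe, hmemC, Set.mem_insert_iff, Set.mem_singleton_iff]
    constructor
    · intro hg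
      have hfix : x0 • ((g : G) • α) = (g : G) • α := by
        rw [← mul_smul, hg, mul_smul, hx0α]
      rcases hL.fix x0 hx0S hx01 hx0α _ hfix with h1 | h1
      · by_cases hg1 : (g : G) = 1
        · left; exact Subtype.ext hg1
        · right; left
          exact Subtype.ext (claimB _ _ g.2 hx0S hg1 hx01 h1 hx0α)
      · have h2 : (t⁻¹ * (g : G)) • α = α := by
          rw [mul_smul, h1, inv_smul_eq_iff, hL.tα]
        have h2S : t⁻¹ * (g : G) ∈ S := S.mul_mem (S.inv_mem hL.tS) g.2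
        by_cases hg1 : t⁻¹ * (g : G) = 1
        · right; right; left
          apply Subtype.ext
          show (g : G) = t
          calc (g : G) = t * (t⁻¹ * (g : G)) := by group
            _ = t := by rw [hg1, mul_one]
        · right; right; right
          apply Subtype.ext
          show (g : G) = t * x0
          have h3 := claimB _ _ h2S hx0S hg1 hx01 h2 hx0α
          calc (g : G) = t * (t⁻¹ * (g : G)) := by group
            _ = t * x0 := by rw [h3]
    · rintro (h | h | h | h)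
      · rw [h]; simp
      · rw [h]
      · rw [h]; exact htx.symm
      · rw [h]
        show x0 * (t * x0) = t * x0 * x0
        rw [← mul_assoc, ← htx]
  have htα' : t ≠ 1 := by
    intro h
    have := hL.tα
    rw [h, one_smul] at this
    exact hL.ne this.symm
  have h1 : (1 : ↥S) ∉ ({⟨x0, hx0S⟩, ⟨t, hL.tS⟩, ⟨t * x0, S.mul_mem hL.tS hx0S⟩} : Set ↥S) := by
    simp only [Set.mem_insert_iff, Set.mem_singleton_iff, not_or]
    refine ⟨?_, ?_, ?_⟩
    · intro h; exact hx01 (congrArg Subtype.val h).symm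
    · intro h; exact htα' (congrArg Subtype.val h).symm
    · intro h
      have h' : (1 : G) = t * x0 := congrArg Subtype.val h
      have : (t * x0) • α = β := by rw [mul_smul, hx0α, hL.tα]
      rw [← h', one_smul] at this
      exact hL.ne this.symm
  have h2 : (⟨x0, hx0S⟩ : ↥S) ∉ ({⟨t, hL.tS⟩, ⟨t * x0, S.mul_mem hL.tS hx0S⟩} : Set ↥S) := by
    simp only [Set.mem_insert_iff, Set.mem_singleton_iff, not_or]
    refine ⟨?_, ?_⟩
    · intro h
      have h' : x0 = t := congrArg Subtype.val h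
      have := hL.tα
      rw [← h', hx0α] at this
      exact hL.ne this.symm
    · intro h
      have h' : x0 = t * x0 := congrArg Subtype.val h
      have : (t * x0) • α = β := by rw [mul_smul, hx0α, hL.tα]
      rw [← h', hx0α] at this
      exact hL.ne this.symm
  have h3 : (⟨t, hL.tS⟩ : ↥S) ∉ ({⟨t * x0, S.mul_mem hL.tS hx0S⟩} : Set ↥S) := by
    simp only [Set.mem_singleton_iff]
    intro h
    have h' : t = t * x0 := congrArg Subtype.val h
    apply hx01
    calc x0 = t⁻¹ * (t * x0) := by group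
      _ = 1 := by rw [← h']; group
  have hcard : Nat.card ↥(Subgroup.centralizer ({(⟨x0, hx0S⟩ : ↥S)} : Set ↥S))
      = ((Subgroup.centralizer ({(⟨x0, hx0S⟩ : ↥S)} : Set ↥S) : Subgroup ↥S) : Set ↥S).ncard :=
    Nat.card_coe_set_eq _
  have hcard4 : Nat.card ↥(Subgroup.centralizer ({(⟨x0, hx0S⟩ : ↥S)} : Set ↥S)) = 4 := by
    rw [hcard, hCset, Set.ncard_insert_of_notMem h1, Set.ncard_insert_of_notMem h2,
      Set.ncard_insert_of_notMem h3, Set.ncard_singleton]
  refine ⟨?_, ⟨x0, hx0S⟩, ?_, ?_, ?_⟩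
  · -- `|T| = 2`
    rw [Nat.card_eq_two_iff' (1 : ↥(S ⊓ MulAction.stabilizer G α))]
    refine ⟨⟨x0, hx0mem⟩, hx0', ?_⟩
    rintro ⟨y, hy⟩ hy1
    apply Subtype.ext
    show y = x0
    have hyS : y ∈ S := (Subgroup.mem_inf.1 hy).1
    have hyα : y • α = α := MulAction.mem_stabilizer_iff.1 (Subgroup.mem_inf.1 hy).2
    have hy1' : y ≠ 1 := by
      intro h
      apply hy1
      exact Subtype.ext h
    exact claimB y x0 hyS hx0S hy1' hx01 hyα hx0α
  · -- order 2
    apply orderOf_eq_prime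
    · apply Subtype.ext
      rw [Subgroup.coe_pow, pow_two]
      exact hx0sq
    · intro h
      exact hx01 (congrArg Subtype.val h)
  · exact hcard4
  · -- `4 < |S|`
    have hCne : Subgroup.centralizer ({(⟨x0, hx0S⟩ : ↥S)} : Set ↥S) ≠ ⊤ := by
      intro h
      have h1 : (⟨s, hsS⟩ : ↥S) ∈ Subgroup.centralizer ({(⟨x0, hx0S⟩ : ↥S)} : Set ↥S) :=
        h ▸ Subgroup.mem_top _
      rw [hmemC] at h1
      have hfix : x0 • (s • α) = s • α := by
        rw [← mul_smul, h1, mul_smul, hx0α]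
      rcases hL.fix x0 hx0S hx01 hx0α _ hfix with h2 | h2
      · exact hsα h2
      · exact hsβ h2
    have hdvd := Subgroup.card_subgroup_dvd_card
      (Subgroup.centralizer ({(⟨x0, hx0S⟩ : ↥S)} : Set ↥S))
    rw [hcard4] at hdvd
    by_contra hle
    have hpos : 0 < Nat.card ↥S := Nat.card_pos
    have h4 : Nat.card ↥S = 4 := by
      obtain ⟨k, hk⟩ := hdvd
      omega
    exact hCne (Subgroup.eq_top_of_card_eq _ (hcard4.trans h4.symm))

end Cfsg.Agent.Lib.Helper47.Fix2
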